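import Cfsg.Agent.S0016
import Cfsg.Agent.Lib.Helper5.Quaternion

set_option autoImplicit false

namespace Cfsg.Agent.Lib.Helper53

/-- a non-abelian finite `2`-group with exactly one involution is generalized quaternion -/
theorem exists_quaternion_equiv {Q : Type*} [Group Q] [Finite Q] (hQ : IsPGroup 2 Q)
    (hnc : ¬ IsMulCommutative Q) (hu : ∃! x : Q, orderOf x = 2) :
    ∃ k : ℕ, Nonempty (Q ≃* QuaternionGroup (2 ^ (k + 1))) := by
  have two_prime : Fact (Nat.Prime 2) := ⟨Nat.prime_two⟩
  obtain ⟨x₀, hx₀, hx₀u⟩ := hu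
  have key : ∀ H : Subgroup Q, Nat.card H = 2 → H = Subgroup.zpowers x₀ := by
    intro H hH
    have hnt : Nontrivial H := by
      rw [← Finite.one_lt_card_iff_nontrivial, hH]; norm_num
    obtain ⟨h, hh⟩ := exists_ne (1 : H)
    have h1 : (h : Q) ≠ 1 := fun e => hh (Subtype.ext e)
    have h2 : (h : Q) ^ 2 = 1 := by
      have := pow_card_eq_one' (G := H) (x := h)
      rw [hH] at this
      exact congrArg Subtype.val this
    have h3 : orderOf (h : Q) = 2 := orderOf_eq_prime h2 h1
    have h4 : (h : Q) = x₀ := hx₀u _ h3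
    symm
    apply Subgroup.eq_of_le_of_card_ge
    · rw [Subgroup.zpowers_le, ← h4]; exact h.2
    · rw [hH, Nat.card_zpowers, hx₀]
  rcases Cfsg.Agent.S0016.result 2 hQ (fun H K hH hK => by rw [key H hH, key K hK]) with h | ⟨-, n, ⟨e⟩⟩
  · exact absurd h.isMulCommutative hnc
  · cases n with
    | zero =>
      exfalso
      apply hnc
      have hc : IsCyclic (QuaternionGroup (2 ^ 0)) := by
        rw [pow_zero]; exact QuaternionGroup.quaternionGroup_one_isCyclic
      have hc' : IsCyclic Q := isCyclic_of_surjective e.symm e.symm.surjective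
      exact hc'.isMulCommutative
    | succ k => exact ⟨k, ⟨e⟩⟩

/-- if generators commute modulo a normal subgroup `M`, the commutator subgroup lies in `M` -/
theorem commutator_le_of_gens {G : Type*} [Group G] (M : Subgroup G) [M.Normal] (T : Set G)
    (hT : Subgroup.closure T = ⊤) (h : ∀ a ∈ T, ∀ b ∈ T, a * b * a⁻¹ * b⁻¹ ∈ M) :
    commutator G ≤ M := by
  have hTm : Subgroup.closure ((QuotientGroup.mk' M) '' T) = ⊤ := by
    rw [← MonoidHom.map_closure, hT, Subgroup.map_top_of_surjective _ (QuotientGroup.mk'_surjective M)]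
  have hA : ∀ a ∈ T, ∀ u : G ⧸ M, u * QuotientGroup.mk' M a = QuotientGroup.mk' M a * u := by
    intro a ha u
    have hle : Subgroup.closure ((QuotientGroup.mk' M) '' T) ≤
        Subgroup.centralizer {QuotientGroup.mk' M a} := by
      rw [Subgroup.closure_le]
      rintro _ ⟨b, hb, rfl⟩
      rw [SetLike.mem_coe, Subgroup.mem_centralizer_singleton_iff, ← map_mul, ← map_mul]
      have := h b hb a ha
      rw [← QuotientGroup.eq_one_iff] at this
      have h2 : QuotientGroup.mk' M (b * a * b⁻¹ * a⁻¹) = 1 := this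
      rw [map_mul, map_mul, map_inv, map_inv, mul_inv_eq_one, mul_inv_eq_iff_eq_mul, ← map_mul] at h2
      exact h2
    have := hle (hTm ▸ Subgroup.mem_top u)
    rwa [Subgroup.mem_centralizer_singleton_iff] at this
  have hB : ∀ u v : G ⧸ M, u * v = v * u := by
    intro u v
    have hle : Subgroup.closure ((QuotientGroup.mk' M) '' T) ≤ Subgroup.centralizer {u} := by
      rw [Subgroup.closure_le]
      rintro _ ⟨b, hb, rfl⟩
      rw [SetLike.mem_coe, Subgroup.mem_centralizer_singleton_iff]
      exact (hA b hb u).symm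
    have := hle (hTm ▸ Subgroup.mem_top v)
    rw [Subgroup.mem_centralizer_singleton_iff] at this
    exact this.symm
  rw [commutator_def, Subgroup.commutator_le]
  intro g₁ _ g₂ _
  rw [← QuotientGroup.eq_one_iff, commutatorElement_def]
  show QuotientGroup.mk' M (g₁ * g₂ * g₁⁻¹ * g₂⁻¹) = 1
  rw [map_mul, map_mul, map_mul, map_inv, map_inv, hB (QuotientGroup.mk' M g₁)]
  group

end Cfsg.Agent.Lib.Helper53
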