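import Cfsg.Agent.Lib.Helper53.SL2

set_option autoImplicit false

namespace Cfsg.Agent.Lib.Helper53

open Matrix

variable {F : Type*} [Field F]

/-- a second square root of `-1` in `SL₂(F)` -/
def sl2J' (α β : F) (h : α * α + β * β = -1) : SpecialLinearGroup (Fin 2) F :=
  ⟨!![α, β; β, -α], by rw [det_fin_two]; simp; linear_combination -h⟩

lemma sl2J'_mul_self (α β : F) (h : α * α + β * β = -1) :
    sl2J' α β h * sl2J' α β h = sl2NegOne F := by
  apply sl2_ext <;> rw [sl2_mul_val] <;> simp [sl2J', sl2NegOne, Matrix.mul_apply, Fin.sum_univ_two]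
  · exact h
  · ring
  · ring
  · linear_combination h

/-- an element of `SL₂(F)` (`F` finite of odd order) commuting with all square roots of `-1` is `±1` -/
lemma sl2_comm_all_sqrt [Fintype F] (hF : Odd (Fintype.card F)) (B : SpecialLinearGroup (Fin 2) F)
    (hB : ∀ A : SpecialLinearGroup (Fin 2) F, A * A = sl2NegOne F → B * A = A * B) :
    B = 1 ∨ B = sl2NegOne F := by
  have h2 := two_ne_zero_of_odd_card hF
  obtain ⟨α, β, hαβ⟩ := exists_sq_add_sq hF (-1 : F)
  have e1 := hB _ (sl2J_mul_self (F := F))
  have e2 := hB _ (sl2J'_mul_self α β hαβ)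
  have a00 := congrArg (fun M : SpecialLinearGroup (Fin 2) F => M.1 0 0) e1
  have a01 := congrArg (fun M : SpecialLinearGroup (Fin 2) F => M.1 0 1) e1
  have b00 := congrArg (fun M : SpecialLinearGroup (Fin 2) F => M.1 0 0) e2
  have b01 := congrArg (fun M : SpecialLinearGroup (Fin 2) F => M.1 0 1) e2
  simp only [sl2_mul_val, Matrix.mul_apply, Fin.sum_univ_two] at a00 a01 b00 b01
  simp [sl2J, sl2J'] at a00 a01 b00 b01
  have hdet := B.2
  rw [det_fin_two] at hdet
  set a := B.1 0 0
  set b := B.1 0 1
  set c := B.1 1 0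
  set d := B.1 1 1
  have hc : c = -b := by linear_combination a00
  have hd : d = a := a01.symm
  have hbβ : b * β = 0 := by
    have : (2 : F) * (b * β) = 0 := by rw [hc] at b00; linear_combination b00
    exact (mul_eq_zero.mp this).resolve_left h2
  have hbα : b * α = 0 := by
    have : (2 : F) * (b * α) = 0 := by rw [hd] at b01; linear_combination -b01
    exact (mul_eq_zero.mp this).resolve_left h2
  have hb : b = 0 := by
    by_contra hb
    have hβ : β = 0 := (mul_eq_zero.mp hbβ).resolve_left hb
    have hα : α = 0 := (mul_eq_zero.mp hbα).resolve_left hb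
    rw [hα, hβ] at hαβ
    simp at hαβ
  apply sl2_sq_eq_one h2
  apply sl2_ext <;> rw [sl2_mul_val] <;> simp [Matrix.mul_apply, Fin.sum_univ_two]
  · show a * a + b * c = 1
    rw [hd, hb] at hdet
    rw [hb]; linear_combination hdet
  · show a * b + b * d = 0
    rw [hb]; ring
  · show c * a + d * c = 0
    rw [hc, hb]; ring
  · show c * b + d * d = 1
    rw [hd, hb] at hdet
    rw [hb, hd]; linear_combination hdet

end Cfsg.Agent.Lib.Helper53
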