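import Cfsg.Agent.Lib.Helper53.SL2

set_option autoImplicit false

/-!
# `SL₂(F)`: an element inverting the centralizer of a square root of `-1`
-/

namespace Cfsg.Agent.Lib.Helper53

open Matrix

variable {F : Type*} [Field F]

/-- for the standard square root `J` of `-1` -/
lemma sl2J_exists_inverter [Fintype F] (h : Odd (Fintype.card F)) :
    ∃ W : SpecialLinearGroup (Fin 2) F, W * W = sl2NegOne F ∧
      ∀ X : SpecialLinearGroup (Fin 2) F, X * sl2J F = sl2J F * X → X * W * X = W := by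
  obtain ⟨p, q, hpq⟩ := exists_sq_add_sq h (-1 : F)
  let W : SpecialLinearGroup (Fin 2) F :=
    ⟨!![p, q; q, -p], by rw [det_fin_two]; simp; linear_combination -hpq⟩
  refine ⟨W, ?_, ?_⟩
  · apply sl2_ext <;> rw [sl2_mul_val] <;>
      simp [W, sl2NegOne, Matrix.mul_apply, Fin.sum_univ_two]
    · linear_combination hpq
    · ring
    · ring
    · linear_combination hpq
  · intro X hX
    have hdet := X.2
    rw [det_fin_two] at hdet
    have e00 := congrArg (fun B : SpecialLinearGroup (Fin 2) F => B.1 0 0) hX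
    have e01 := congrArg (fun B : SpecialLinearGroup (Fin 2) F => B.1 0 1) hX
    simp only [sl2_mul_val, Matrix.mul_apply, Fin.sum_univ_two] at e00 e01
    simp [sl2J] at e00 e01
    apply sl2_ext <;> rw [sl2_mul_val, sl2_mul_val] <;>
      simp [W, Matrix.mul_apply, Fin.sum_univ_two]
    · linear_combination p * hdet + X.1 0 0 * p * e01 + X.1 0 0 * q * e00
    · linear_combination q * hdet + X.1 0 1 * p * e01 + X.1 0 1 * q * e00
    · linear_combination q * hdet + X.1 1 0 * p * e01 + X.1 1 0 * q * e00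
    · linear_combination (-p) * hdet + X.1 1 1 * p * e01 + X.1 1 1 * q * e00

/-- for every square root `A` of `-1` in `SL₂(F)` there is a square root `W` of `-1` inverting the
centralizer of `A` -/
lemma sl2_exists_inverter [Fintype F] (h : Odd (Fintype.card F)) (A : SpecialLinearGroup (Fin 2) F)
    (hA : A * A = sl2NegOne F) :
    ∃ W : SpecialLinearGroup (Fin 2) F, W * W = sl2NegOne F ∧
      ∀ X : SpecialLinearGroup (Fin 2) F, X * A = A * X → W * X * W⁻¹ = X⁻¹ := by
  obtain ⟨g, rfl⟩ := sl2_conj_of_sq_eq_negOne h A hA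
  obtain ⟨W, hW, hWX⟩ := sl2J_exists_inverter h
  have hcen : ∀ Y : SpecialLinearGroup (Fin 2) F, Y * sl2NegOne F = sl2NegOne F * Y := by
    intro Y
    apply sl2_ext <;> rw [sl2_mul_val, sl2_mul_val] <;>
      simp [sl2NegOne, Matrix.mul_apply, Fin.sum_univ_two]
  refine ⟨g * W * g⁻¹, ?_, ?_⟩
  · calc g * W * g⁻¹ * (g * W * g⁻¹) = g * (W * W) * g⁻¹ := by group
      _ = g * sl2NegOne F * g⁻¹ := by rw [hW]
      _ = sl2NegOne F * g * g⁻¹ := by rw [hcen g]
      _ = sl2NegOne F := by group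
  · intro X hX
    have h1 : (g⁻¹ * X * g) * sl2J F = sl2J F * (g⁻¹ * X * g) := by
      calc (g⁻¹ * X * g) * sl2J F = g⁻¹ * (X * (g * sl2J F * g⁻¹)) * g := by group
        _ = g⁻¹ * ((g * sl2J F * g⁻¹) * X) * g := by rw [hX]
        _ = sl2J F * (g⁻¹ * X * g) := by group
    have h2 := hWX _ h1
    have h3 : X * (g * W * g⁻¹) * X = g * W * g⁻¹ := by
      calc X * (g * W * g⁻¹) * X = g * ((g⁻¹ * X * g) * W * (g⁻¹ * X * g)) * g⁻¹ := by group
        _ = g * W * g⁻¹ := by rw [h2]
    calc g * W * g⁻¹ * X * (g * W * g⁻¹)⁻¹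
        = X⁻¹ * (X * (g * W * g⁻¹) * X) * (g * W * g⁻¹)⁻¹ := by group
      _ = X⁻¹ := by rw [h3]; group

end Cfsg.Agent.Lib.Helper53
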